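import Cfsg.Agent.H874.TS.Three
import Cfsg.Agent.H358.TS.Gp

/-!
# `F₄(2)` (S5745): the centraliser of the element of order five in the Levi subgroup `Sp₄(2)` (helper358, for helper874)

`card_z5` : `|C_L(z₅)| ≤ 15`, `L = LM 6`.  `C_L(z₅)` acts semiregularly on the 15 `L`-conjugates of `x₂₅`.
-/

set_option autoImplicit false
set_option linter.unusedSectionVars false
set_option maxRecDepth 100000

namespace Cfsg.Agent.H358.TS

open CoxeterSystem Cfsg.Agent.ChevalleyStructure.CoxeterGeom Cfsg.Agent.Tits.Roots Cfsg.Agent.Tits.Core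
  Cfsg.Agent.Nodes.Reps Cfsg.Agent.Nodes.BNOf
  Cfsg.Agent.Nodes.StabComb Cfsg.Agent.Nodes.Bruhat Cfsg.Agent.Nodes.LeviDec
open Cfsg.Lie
open Cfsg.Agent.FourTwo.Base Cfsg.Agent.FourTwo.Par
open Cfsg.Agent.H82.TS Cfsg.Agent.H874.TS

attribute [local irreducible] wd

/-- the 15 conjugates of `x₂₅` -/
def cls : List (List ℕ) := [[25], [27, 25, 27], [22, 25, 22], [19, 25, 19], [22, 27, 25, 27, 22], [20, 27, 25, 27, 20],
  [19, 27, 25, 27, 19], [17, 27, 25, 27, 17], [25, 22, 25, 22, 25], [20, 22, 25, 22, 20], [28, 19, 25, 19, 28],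
  [25, 22, 27, 25, 27, 22, 25], [20, 22, 27, 25, 27, 22, 20], [17, 20, 27, 25, 27, 20, 17],
  [28, 19, 27, 25, 27, 19, 28]]

/-- the action of the root elements on them -/
def act : List (ℕ × List ℕ) := [(25, [0, 1, 8, 3, 11, 5, 12, 7, 2, 14, 10, 4, 6, 13, 9]),
  (27, [1, 0, 4, 6, 2, 5, 3, 9, 8, 7, 14, 11, 13, 12, 10]),
  (28, [0, 1, 4, 10, 2, 5, 14, 13, 11, 12, 3, 8, 9, 7, 6]),
  (30, [0, 1, 2, 7, 4, 5, 9, 3, 8, 6, 13, 11, 14, 10, 12]),
  (22, [2, 4, 0, 9, 1, 5, 7, 6, 8, 3, 10, 11, 12, 13, 14]),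
  (20, [0, 5, 9, 3, 12, 1, 11, 13, 14, 2, 10, 6, 4, 7, 8]),
  (19, [3, 6, 9, 0, 7, 11, 1, 4, 8, 2, 10, 5, 13, 12, 14]),
  (17, [0, 7, 2, 3, 6, 13, 4, 1, 8, 9, 10, 12, 11, 5, 14])]

theorem act_ok : (act.all fun p => (List.range 15).all fun i =>
    chk ([p.1] ++ (cls.getD i [] ++ [p.1])) (cls.getD (p.2.getD i 15) []) && decide (p.2.getD i 15 < 15)) = true := by
  decide +kernel

theorem mem_act : ((List.range 48).all fun r => !(rtB 6 r) || act.any fun p => p.1 == r) = true := by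
  decide +kernel

/-- the class -/
def S : Set LL := {g | ∃ i < 15, g = wd (cls.getD i [])}

theorem gen_S {r : ℕ} (hr : r < 48) (hP : rtB 6 r = true) {g : LL} (hg : g ∈ S) : x r * g * (x r)⁻¹ ∈ S := by
  obtain ⟨i, hi, rfl⟩ := hg
  have h1 := mem_act
  rw [List.all_eq_true] at h1
  have h2 := h1 r (List.mem_range.2 hr)
  rw [hP, Bool.not_true, Bool.false_or, List.any_eq_true] at h2
  obtain ⟨p, hp, hpr⟩ := h2
  have hpr' : p.1 = r := by simpa using hpr
  have h3 := act_ok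
  rw [List.all_eq_true] at h3
  have h4 := h3 p hp
  rw [List.all_eq_true] at h4
  have h5 := h4 i (List.mem_range.2 hi)
  rw [Bool.and_eq_true, decide_eq_true_eq] at h5
  refine ⟨_, h5.2, ?_⟩
  rw [← wd_eq _ _ h5.1, wd_append, wd_append, hpr', wd_one, x_inv, mul_assoc]

theorem S_finite : S.Finite := by
  refine (Set.finite_range (fun i : Fin 15 => wd (cls.getD i.1 []))).subset ?_
  rintro g ⟨i, hi, rfl⟩
  exact ⟨⟨i, hi⟩, rfl⟩

theorem mem_LM_iff {g : LL} (hg : g ∈ LM 6) : g ∈ Subgroup.closure {g : LL | ∃ r < 48, rtB 6 r = true ∧ g = x r} := by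
  rw [LM, LJ_eq] at hg
  exact hg

theorem conj_S {g : LL} (hg : g ∈ LM 6) : ∀ s ∈ S, g * s * g⁻¹ ∈ S := by
  refine g_conj S_finite ?_ (mem_LM_iff hg)
  rintro a ⟨r, hr, hP, rfl⟩ s hs
  exact gen_S hr hP hs

/-- the element of order five and its inverse -/
def Z5 : List ℕ := [27, 25, 27, 20, 27, 25, 22, 25]
def ZI : List ℕ := [25, 22, 25, 27, 20, 27, 25, 27]

theorem comm_app {c : LL} {a b : List ℕ} (ha : Cm c (wd a)) (hb : Cm c (wd b)) : Cm c (wd (a ++ b)) := by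
  rw [wd_append]
  exact ha.mul hb

theorem comm_of {c : LL} {a b : List ℕ} (ha : Cm c (wd a)) (h : chk a b = true) : Cm c (wd b) := by
  rw [← wd_eq _ _ h]
  exact ha

theorem ZZ : wd Z5 * wd ZI = 1 := by
  rw [← wd_append]
  exact (wd_eq (Z5 ++ ZI) [] (by decide +kernel)).trans wd_nil

theorem c27 : chk (Z5 ++ ([25] ++ (ZI ++ ([25] ++ (ZI ++ ([25] ++ (ZI ++ ZI))))))) [27] = true := by decide +kernel
theorem c22 : chk ([25] ++ (Z5 ++ (Z5 ++ ([25] ++ (ZI ++ (ZI ++ [25])))))) [22] = true := by decide +kernel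
theorem c20 : chk (Z5 ++ ([25] ++ (Z5 ++ (Z5 ++ ([25] ++ (Z5 ++ (Z5 ++ ([25] ++ Z5)))))))) [20] = true := by decide +kernel
theorem c28 : chk ([25] ++ ([22] ++ ([25] ++ ([27] ++ ([25] ++ ([22] ++ [25])))))) [28] = true := by decide +kernel
theorem c30 : chk ([27] ++ ([20] ++ ([27] ++ ([25] ++ ([27] ++ ([20] ++ [27])))))) [30] = true := by decide +kernel
theorem c19 : chk ([25] ++ ([22] ++ ([25] ++ ([20] ++ ([25] ++ ([22] ++ [25])))))) [19] = true := by decide +kernel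
theorem c17 : chk ([27] ++ ([20] ++ ([27] ++ ([22] ++ ([27] ++ ([20] ++ [27])))))) [17] = true := by decide +kernel

/-- the root elements commute with `c` -/
theorem comm_gen {c : LL} (hz : Cm c (wd Z5)) (hx : Cm c (wd [25])) {r : ℕ} (hr : r < 48)
    (hP : rtB 6 r = true) : Cm c (wd [r]) := by
  have hi : Cm c (wd ZI) := g_inv ZZ hz
  have h27 : Cm c (wd [27]) := comm_of (comm_app hz (comm_app hx (comm_app hi (comm_app hx (comm_app hi
    (comm_app hx (comm_app hi hi))))))) c27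
  have h22 : Cm c (wd [22]) := comm_of (comm_app hx (comm_app hz (comm_app hz (comm_app hx (comm_app hi
    (comm_app hi hx)))))) c22
  have h20 : Cm c (wd [20]) := comm_of (comm_app hz (comm_app hx (comm_app hz (comm_app hz (comm_app hx
    (comm_app hz (comm_app hz (comm_app hx hz)))))))) c20
  have h28 : Cm c (wd [28]) := comm_of (comm_app hx (comm_app h22 (comm_app hx (comm_app h27 (comm_app hx
    (comm_app h22 hx)))))) c28
  have h30 : Cm c (wd [30]) := comm_of (comm_app h27 (comm_app h20 (comm_app h27 (comm_app hx (comm_app h27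
    (comm_app h20 h27)))))) c30
  have h19 : Cm c (wd [19]) := comm_of (comm_app hx (comm_app h22 (comm_app hx (comm_app h20 (comm_app hx
    (comm_app h22 hx)))))) c19
  have h17 : Cm c (wd [17]) := comm_of (comm_app h27 (comm_app h20 (comm_app h27 (comm_app h22 (comm_app h27
    (comm_app h20 h27)))))) c17
  have h1 := mem_act
  rw [List.all_eq_true] at h1
  have h2 := h1 r (List.mem_range.2 hr)
  rw [hP, Bool.not_true, Bool.false_or] at h2
  simp only [act, List.any_cons, List.any_nil, Bool.or_false, Bool.or_eq_true, beq_iff_eq] at h2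
  rcases h2 with rfl | rfl | rfl | rfl | rfl | rfl | rfl | rfl
  · exact hx
  · exact h27
  · exact h28
  · exact h30
  · exact h22
  · exact h20
  · exact h19
  · exact h17

/-- an element commuting with `z₅` and `x₂₅` is central -/
theorem central {c : LL} (hz : Cm c (wd Z5)) (hx : Cm c (wd [25])) {g : LL} (hg : g ∈ LM 6) : Cm c g := by
  refine g_comm ?_ (mem_LM_iff hg)
  rintro a ⟨r, hr, hP, rfl⟩
  rw [← wd_one]
  exact comm_gen hz hx hr hP

theorem center_three {c : LL} (hc : c ∈ LM 6) (hcen : ∀ g ∈ LM 6, Cm c g) (h3 : c ^ 3 = 1) : c = 1 := by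
  obtain ⟨g, hg, i, hi, j, hj, h1⟩ := conj_two (a := 25) (b := 30) op6 (by decide +kernel) (by decide +kernel)
    (by decide +kernel) (by norm_num) hc h3
  have hT := two_of (m := 6) (a := 25) (b := 30) (by decide +kernel) (by decide +kernel) (by decide +kernel)
  exact g_three hi hj h1 (hcen g hg) (hcen _ hT.x1L) (hcen _ hT.x2L) hT.x12 hT.x21 hT.s1p hT.s2p hT.x11 hT.x22

theorem z5_mem : wd Z5 ∈ LM 6 := wd_mem_of (by decide +kernel)

theorem z5_pow : wd Z5 ^ 5 = 1 := by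
  have h1 : wd Z5 ^ 5 = wd Z5 * (wd Z5 * (wd Z5 * (wd Z5 * wd Z5))) := by
    rw [pow_succ', pow_succ', pow_succ', pow_succ', pow_one]
  rw [h1, ← wd_append, ← wd_append, ← wd_append, ← wd_append]
  exact (wd_eq (Z5 ++ (Z5 ++ (Z5 ++ (Z5 ++ Z5)))) [] (by decide +kernel)).trans wd_nil

theorem x25_mem : wd [25] ∈ LM 6 := x_mem (by decide +kernel)

theorem center_five (hell : Ell c0 h0 T0 X0 (JJ 6) (wd Z5)) {c : LL} (hc : c ∈ LM 6)
    (hcen : ∀ g ∈ LM 6, Cm c g) (h5 : c ^ 5 = 1) : c = 1 := by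
  by_contra hne
  have h5p : Nat.Prime 5 := by norm_num
  have : Fact (Nat.Prime 5) := ⟨h5p⟩
  have ho : orderOf c = 5 := orderOf_eq_prime h5 hne
  obtain ⟨g, hg, h1⟩ := conj_in op6 h5p (by norm_num) (Q := Subgroup.zpowers c) (by rw [Subgroup.zpowers_le]; exact hc)
    (b := 1) (by rw [Nat.card_zpowers, ho, pow_one]) (by norm_num) z5_mem (k := 1) (by rw [pow_one]; exact z5_pow)
  obtain ⟨h2, h3, h4⟩ := g_five h1 (hcen _ x25_mem) (by rw [wd_one, x_mul_self])
    (g_ne (xs_ne (r := 25) (by norm_num) (wpow3 (by decide +kernel))))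
  exact comm_false hell z5_mem (Subgroup.mul_mem _ (Subgroup.mul_mem _ (Subgroup.inv_mem _ hg) x25_mem) hg) h2 h3 h4

theorem center_one (hell : Ell c0 h0 T0 X0 (JJ 6) (wd Z5)) {c : LL} (hc : c ∈ (Cx (wd Z5) ⊓ LM 6 : Subgroup LL))
    (hx : Cm c (wd [25])) : c = 1 := by
  have hz : Cm c (wd Z5) := Cm.of (mem_Cx.1 hc.1).symm
  refine g_one (P := fun c => c ∈ LM 6 ∧ ∀ g ∈ LM 6, Cm c g) ?_ ?_ ?_ ⟨hc.2, fun g hg => central hz hx hg⟩
    (g_45 (cent_dvd op6 hell z5_mem) hc)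
  · exact fun c hc n => ⟨Subgroup.pow_mem _ hc.1 n, fun g hg => (hc.2 g hg).pow n⟩
  · exact fun c hc => center_three hc.1 hc.2
  · exact fun c hc => center_five hell hc.1 hc.2

theorem card_Z5 (hell : Ell c0 h0 T0 X0 (JJ 6) (wd Z5)) : Nat.card (Cx (wd Z5) ⊓ LM 6 : Subgroup LL) ≤ 15 := by
  refine g_card (t := wd [25]) (w := fun i => wd (cls.getD i [])) (fun c hc => ?_) fun c hc => center_one hell hc
  obtain ⟨i, hi, h1⟩ := conj_S hc.2 (wd [25]) ⟨0, by norm_num, rfl⟩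
  exact ⟨i, hi, h1⟩

/-- **`|C_L(z₅)| ≤ 15`** -/
theorem card_z5 (hell : Ell c0 h0 T0 X0 (JJ 6) (wd [27, 25, 27, 20, 27, 25, 22, 25])) :
    Nat.card (Cx (wd [27, 25, 27, 20, 27, 25, 22, 25]) ⊓ LM 6 : Subgroup LL) ≤ 15 :=
  card_Z5 hell

end Cfsg.Agent.H358.TS
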